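import Cfsg.Agent.SIG.WielOrder
import Cfsg.Agent.SOLV.Primitive
import Cfsg.Agent.SOLV.Frattini
import Cfsg.Agent.PLOC.PFrattini

/-! A group `3²` with a single class of non-trivial elements acting on a `2`-group. -/

set_option autoImplicit false
set_option linter.unusedVariables false

namespace CL.US2

open Subgroup

variable {G : Type*} [Group G] [Finite G]

theorem wie {E R : Subgroup G} (cE : Nat.card E = 9) (E3 : ∀ e ∈ E, e ^ 3 = 1) (hR : IsPGroup 2 R)
    (n : E ≤ normalizer (R : Set G))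
    (cj : ∀ e ∈ E, ∀ f ∈ E, e ≠ 1 → f ≠ 1 → ∃ u ∈ normalizer (R : Set G), u * e * u⁻¹ = f) :
    ∃ m, Nat.card R = 256 ^ m * Nat.card (R ⊓ centralizer (E : Set G) : Subgroup G) := by
  classical
  have : Fact (Nat.Prime 2) := ⟨Nat.prime_two⟩
  have : Fact (Nat.Prime 3) := ⟨Nat.prime_three⟩
  have := Fintype.ofFinite E
  have hE : IsPGroup 3 E := IsPGroup.of_card (n := 2) cE
  have Ec := IsPGroup.isMulCommutative_of_card_eq_prime_sq (G := E) (p := 3) cE
  obtain ⟨⟨e, he⟩, e1⟩ := ne_bot_iff_exists_ne_one.1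
    ((one_lt_card_iff_ne_bot E).1 (by omega))
  have e1' : e ≠ 1 := fun H => e1 (Subtype.ext H)
  obtain ⟨N, hN⟩ := hR.exists_card_eq
  obtain ⟨a, ha⟩ := (hR.to_inf_left (K := centralizer {e})).exists_card_eq
  obtain ⟨b, hb⟩ := (hR.to_inf_left (K := centralizer (E : Set G))).exists_card_eq
  have key := WOrd.order_formula' Nat.prime_three E R E3 (by omega) n (by
    rw [hN]; exact fun H => absurd (Nat.prime_three.dvd_of_dvd_pow H) (by decide))
  rw [Finset.prod_congr rfl (g := fun _ => 2 ^ a) fun f hf => ?_, Finset.prod_const,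
    Finset.card_erase_of_mem (Finset.mem_univ _), Finset.card_univ, ← Nat.card_eq_fintype_card, cE,
    hN, hb, ← pow_mul, ← pow_mul, ← pow_mul, ← pow_mul, ← pow_add] at key
  · have k1 := Nat.pow_right_injective le_rfl key
    have k2 := Prim.card_modEq_card_inf_centralizer hE (E := R ⊓ centralizer {e})
      (le_trans (le_inf n fun f hf => le_normalizer (mem_centralizer_singleton_iff.2
        (congrArg Subtype.val (Ec.is_comm.comm (⟨f, hf⟩ : E) ⟨e, he⟩))))
        inf_normalizer_le_normalizer_inf)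
    rw [inf_assoc, inf_eq_right.2 (centralizer_le (Set.singleton_subset_iff.2 he)), ha, hb] at k2
    have k3 : b ≤ a := (Nat.pow_le_pow_iff_right (by norm_num)).1 (ha ▸ hb ▸ card_le_of_le
      (inf_le_inf_left _ (centralizer_le (Set.singleton_subset_iff.2 he))))
    obtain ⟨c, rfl⟩ := Nat.exists_eq_add_of_le k3
    obtain ⟨m, rfl | rfl⟩ := Nat.even_or_odd' c
    · exact ⟨m, by rw [hN, hb, show N = 8 * m + b by omega, pow_add, pow_mul]; rfl⟩
    · have k4 : 2 ^ (2 * m + 1) ≡ 1 [MOD 3] :=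
        Nat.ModEq.cancel_left_of_coprime (c := 2 ^ b) (Nat.Coprime.pow_right b (by decide : Nat.Coprime 3 2)) (by rwa [← pow_add, mul_one])
      rw [pow_succ, pow_mul, Nat.ModEq, Nat.mul_mod, Nat.pow_mod] at k4
      simp at k4
  · obtain ⟨u, hu, H⟩ := cj e he f f.2 e1' fun H => (Finset.mem_erase.1 hf).1 (Subtype.ext H)
    rw [← ha]
    refine Nat.card_congr ⟨fun r => ⟨u⁻¹ * r * u, (mem_normalizer_iff''.1 hu _).1 r.2.1, ?_⟩,
      fun r => ⟨u * r * u⁻¹, (mem_normalizer_iff.1 hu _).1 r.2.1, ?_⟩,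
      fun r => Subtype.ext (by simp [mul_assoc]), fun r => Subtype.ext (by simp [mul_assoc])⟩
    · have := mem_centralizer_singleton_iff.1 r.2.2
      refine mem_centralizer_singleton_iff.2 ?_
      calc _ = u⁻¹ * (r * (u * e * u⁻¹)) * u := by group
        _ = u⁻¹ * (u * e * u⁻¹ * r) * u := by rw [H, this]
        _ = _ := by group
    · have := mem_centralizer_singleton_iff.1 r.2.2
      refine mem_centralizer_singleton_iff.2 ?_
      rw [← H, conj_mul, conj_mul, this]

theorem big {E Q : Subgroup G} (cE : Nat.card E = 9) (E3 : ∀ e ∈ E, e ^ 3 = 1) (hQ : IsPGroup 2 Q)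
    (n : E ≤ normalizer (Q : Set G))
    (cj : ∀ e ∈ E, ∀ f ∈ E, e ≠ 1 → f ≠ 1 → ∃ u ∈ normalizer (Q : Set G), u * e * u⁻¹ = f)
    (nc : ¬ Q ≤ centralizer (E : Set G)) (lt : Nat.card Q < 2 ^ 16) :
    256 ≤ Nat.card Q ∧ ∀ y ∈ Q, ∀ e ∈ E, y ^ 2 * e = e * y ^ 2 := by
  have : Fact (Nat.Prime 2) := ⟨Nat.prime_two⟩
  have nF := normalizer_le_normalizer_map_subtype Q (frattini Q)
  have le : (frattini Q).map Q.subtype ≤ Q := map_subtype_le _
  obtain ⟨m, hm⟩ := wie cE E3 hQ n cj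
  obtain ⟨k, hk⟩ := wie cE E3 (hQ.to_le le) (n.trans nF) fun e he f hf e1 f1 =>
    (cj e he f hf e1 f1).imp fun u hu => ⟨nF hu.1, hu.2⟩
  have h1 := card_sup_mul_card_inf_of_le_normalizer (H := Q ⊓ centralizer (E : Set G))
    (K := (frattini Q).map Q.subtype) (inf_le_left.trans (le_normalizer.trans nF))
  rw [inf_right_comm, inf_eq_right.2 le, hk, ← mul_assoc] at h1
  have h2 := Nat.eq_of_mul_eq_mul_right Nat.card_pos h1
  have h3 : Nat.card (Q ⊓ centralizer (E : Set G) ⊔ (frattini Q).map Q.subtype : Subgroup G) <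
      Nat.card Q := by
    by_contra! H
    exact nc (inf_eq_left.1 (eq_of_sup_eq_of_le_map_frattini inf_le_left le_rfl
      ((eq_of_le_of_card_ge (sup_le inf_le_left le) H).ge.trans (sup_comm _ _).le)))
  have p0 : 0 < Nat.card (Q ⊓ centralizer (E : Set G) : Subgroup G) := Nat.card_pos
  rw [h2, hm, mul_comm] at h3
  have h4 := (Nat.pow_lt_pow_iff_right (by norm_num)).1 (lt_of_mul_lt_mul_right h3 (Nat.zero_le _))
  have h5 : 256 ^ m ≤ Nat.card Q := hm ▸ Nat.le_mul_of_pos_right _ p0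
  have h6 : m < 2 := (Nat.pow_lt_pow_iff_right (a := 256) (by norm_num)).1 (h5.trans_lt lt)
  obtain rfl : k = 0 := by omega
  obtain rfl : m = 1 := by omega
  refine ⟨h5, fun y hy e he => ?_⟩
  rw [pow_zero, one_mul] at hk
  exact (((eq_of_le_of_card_ge inf_le_left hk.le).ge (PG.pow_mem_frattini_map hQ hy)).2 e he).symm

end CL.US2
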